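import Cfsg.Agent.H692.Rel.Red
import Cfsg.Agent.H692.Rel.Simple

/-!
# Odd relative degrees below a simple group (helper281, for S4919)

`false_normal`: `Z` central in `G`, all irreducible characters over the linear character `l` of `Z` have odd degree;
then no normal subgroup `L ≥ Z` has a nonabelian simple quotient `L / Z`.
-/

set_option autoImplicit false
set_option linter.style.haveILetI false
set_option linter.unusedSectionVars false

namespace Cfsg.Agent.H281.Reg

open Cfsg Cfsg.Agent.Characters.Core Cfsg.Agent.Characters.Clifford Cfsg.Agent.H672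
open Cfsg.Agent.H586.GW Cfsg.Agent.H692.Rel
open Cfsg.Agent.H672.RM (over_lin_iff TSet)
open scoped ComplexConjugate commutatorElement

universe u

variable {G : Type u} [Group G] [Finite G] {Z : Subgroup G}

theorem false_simple (hrows : RowsHyp.{u}) (him : IM2Hyp.{u}) (Z : Subgroup G) [hZn : Z.Normal]
    (hZ : Z ≤ Subgroup.center G) (l : Z →* ℂˣ) (hrel : RelP 2 Z.subtype (lf l))
    [hs : IsSimpleGroup (G ⧸ Z)] (hna : ¬ IsMulCommutative (G ⧸ Z)) : False := by
  classical
  obtain ⟨l, hrel, m, hm, hlm⟩ := exists_odd hZ hrel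
  let K : Subgroup G := l.ker.map Z.subtype
  have hKZ : K ≤ Z := by
    rintro _ ⟨z, -, rfl⟩
    exact z.2
  haveI hK : K.Normal := center_normal K (hKZ.trans hZ)
  let q : G →* G ⧸ K := QuotientGroup.mk' K
  have hq : Function.Surjective q := QuotientGroup.mk'_surjective K
  have hkq : q.ker = K := QuotientGroup.ker_mk' K
  let Z' : Subgroup (G ⧸ K) := Z.map q
  have hZ' : Z' ≤ Subgroup.center (G ⧸ K) := by
    rintro _ ⟨z, hz, rfl⟩
    rw [Subgroup.mem_center_iff]
    intro x
    obtain ⟨x, rfl⟩ := hq x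
    rw [← map_mul, ← map_mul, Subgroup.mem_center_iff.1 (hZ hz) x]
  haveI hZ'n : Z'.Normal := center_normal Z' hZ'
  let f : Z →* Z' := (q.comp Z.subtype).codRestrict Z' (fun z => ⟨z, z.2, rfl⟩)
  have hf : Function.Surjective f := by
    rintro ⟨_, z, hz, rfl⟩
    exact ⟨⟨z, hz⟩, rfl⟩
  have hkf : f.ker ≤ l.ker := by
    intro z hz
    have h1 : q (z : G) = 1 := congrArg Subtype.val (MonoidHom.mem_ker.1 hz)
    have h2 : (z : G) ∈ K := by rw [← hkq]; exact MonoidHom.mem_ker.2 h1
    obtain ⟨w, hw, hwz⟩ := h2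
    have : w = z := Subtype.ext hwz
    rwa [← this]
  let l' : Z' →* ℂˣ := f.liftOfSurjective hf ⟨l, hkf⟩
  have hl' : ∀ z, l' (f z) = l z := fun z => MonoidHom.liftOfRightInverse_comp_apply _ _ _ _ _
  have hinj : Function.Injective l' := by
    rw [injective_iff_map_eq_one]
    intro z hz
    obtain ⟨z, rfl⟩ := hf z
    rw [hl'] at hz
    apply Subtype.ext
    change q (z : G) = 1
    rw [← MonoidHom.mem_ker, hkq]
    exact ⟨z, hz, rfl⟩
  have hodd : Odd (Nat.card Z') := by
    by_contra hcon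
    rw [Nat.not_odd_iff_even] at hcon
    haveI : Fact (Nat.Prime 2) := ⟨Nat.prime_two⟩
    obtain ⟨x, hx⟩ := exists_prime_orderOf_dvd_card' 2 (even_iff_two_dvd.1 hcon)
    obtain ⟨z, rfl⟩ := hf x
    have h1 : f z ^ m = 1 := by
      apply hinj
      rw [map_pow, hl', hlm, map_one]
    have h2 := orderOf_dvd_of_pow_eq_one h1
    rw [hx] at h2
    exact Nat.not_even_iff_odd.2 hm (even_iff_two_dvd.2 h2)
  have hrel' : RelP 2 Z'.subtype (lf l') := by
    intro χ hχ hov hd
    have h1 : IsIrrCharacter G (χ ∘ q) := isIrr_comp q hq hχ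
    refine hrel (χ ∘ q) h1 ?_ ?_
    · rw [over_lin_iff Z.subtype (fun z => hZ z.2) h1]
      rw [over_lin_iff Z'.subtype (fun z => hZ' z.2) hχ] at hov
      intro z
      have h2 := hov (f z)
      rw [hl'] at h2
      change χ (q z) = χ (q 1) * _
      rw [map_one]
      exact h2
    · rw [charDegree_comp_one, charDegree_lf]
      rwa [charDegree_lf] at hd
  let e : (G ⧸ K) ⧸ Z' ≃* G ⧸ Z := QuotientGroup.quotientQuotientEquivQuotient K Z hKZ
  haveI hs' : IsSimpleGroup ((G ⧸ K) ⧸ Z') := e.isSimpleGroup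
  have hna' : ¬ IsMulCommutative ((G ⧸ K) ⧸ Z') := by
    intro h
    apply hna
    refine ⟨⟨fun a b => ?_⟩⟩
    have h1 := h.is_comm.comm (e.symm a) (e.symm b)
    apply e.symm.injective
    rw [map_mul, map_mul]
    exact h1
  exact simple_case hrows him hZ' hodd (allOdd_of_rel hZ' hrel') hna'

theorem false_normal (hrows : RowsHyp.{u}) (him : IM2Hyp.{u}) (hZ : Z ≤ Subgroup.center G)
    (l : Z →* ℂˣ) (hrel : RelP 2 Z.subtype (lf l)) (L : Subgroup G) [hL : L.Normal] (hZL : Z ≤ L)
    {S : Type*} [Group S] [hs : IsSimpleGroup S] (hna : ¬ IsMulCommutative S)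
    (f : L →* S) (hf : Function.Surjective f) (hk : f.ker = Z.subgroupOf L) : False := by
  haveI := center_normal Z hZ
  have h1 := hrel.normal Z (isIrr_lf l) L hZL
  have h2 := relP_equiv _ (Subgroup.subgroupOfEquivOfLe hZL) h1
  have hcen : Z.subgroupOf L ≤ Subgroup.center L := by
    intro z hz
    rw [Subgroup.mem_center_iff]
    intro g
    apply Subtype.ext
    exact Subgroup.mem_center_iff.1 (hZ hz) (g : G)
  let l0 : Z.subgroupOf L →* ℂˣ := l.comp (Subgroup.subgroupOfEquivOfLe hZL).toMonoidHom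
  have h3 : RelP 2 (Z.subgroupOf L).subtype (lf l0) := h2
  haveI : (Z.subgroupOf L).Normal := center_normal _ hcen
  let e : L ⧸ Z.subgroupOf L ≃* S :=
    (QuotientGroup.quotientMulEquivOfEq hk.symm).trans (QuotientGroup.quotientKerEquivOfSurjective f hf)
  haveI : IsSimpleGroup (L ⧸ Z.subgroupOf L) := e.isSimpleGroup
  refine false_simple hrows him (Z.subgroupOf L) hcen l0 h3 ?_
  intro h
  apply hna
  refine ⟨⟨fun a b => ?_⟩⟩
  have h4 := h.is_comm.comm (e.symm a) (e.symm b)
  apply e.symm.injective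
  rw [map_mul, map_mul]
  exact h4

end Cfsg.Agent.H281.Reg
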